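import Cfsg.Agent.Lib.SLThreePres.Steinberg
import Cfsg.Agent.Lib.SLTwoPres.Borel
import Cfsg.Agent.Lib.SLTwoPres.Final

/-!
# Fourteen relations for `SL₃(q)`
-/

set_option autoImplicit false

namespace Cfsg.Agent.Lib.SLThreePres.Main

open Polynomial
open Cfsg.Agent.Lib.SLThreePres Cfsg.Agent.Lib.SLTwoPres.Borel

universe u

/-- `u`. -/
def U : FreeGroup (Fin 4) := FreeGroup.of 0

/-- `t`. -/
def T : FreeGroup (Fin 4) := FreeGroup.of 1

/-- `c`. -/
def C : FreeGroup (Fin 4) := FreeGroup.of 2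

/-- `h`. -/
def H : FreeGroup (Fin 4) := FreeGroup.of 3

section words

variable {G : Type*} [Group G] (u t c h : G)

/-- `u` scaled by the `n`-th power of `h`. -/
def xp (n : ℕ) : G := h ^ n * u * (h ^ n)⁻¹

/-- The element `x₁₃` attached to `v`. -/
def up (v : G) : G := c * (c * (t * v * t⁻¹) * c⁻¹) * c⁻¹

/-- The element `x₃₁` attached to `v`. -/
def dn (v : G) : G := c * (c * v * c⁻¹) * c⁻¹

/-- The relations of the monomial part, for exponents `m`, `l`, `e`. -/
def Fixed (m l e : ℕ) : Prop :=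
  c ^ 3 = 1 ∧ c = t * c * t * c⁻¹ ∧ u * (t * u * t⁻¹) * u = t ∧
  h = up t c (xp u h 1) * dn c (xp u h m) * up t c (xp u h 1) * (up t c u⁻¹ * dn c u⁻¹ * up t c u⁻¹) ∧
  h * (c * h * c⁻¹) = (c * h * c⁻¹) * h ∧ c * h * c⁻¹ * u * (c * h * c⁻¹)⁻¹ = xp u h l ∧
  t * h * t⁻¹ = h * (c * h * c⁻¹) ∧ t ^ 2 = (c * h * c⁻¹) ^ e

/-- The two relations between root elements, at the scale `n`. -/
def Pair (n : ℕ) : Prop :=
  cmr (xp u h n) (c * u * c⁻¹) = up t c (xp u h n) ∧ u * up t c (xp u h n) = up t c (xp u h n) * u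

end words

/-- The fixed relators. -/
def fixedRels (m l e : ℕ) : Finset (FreeGroup (Fin 4)) :=
  {C ^ 3, C * (T * C * T * C⁻¹)⁻¹, U * (T * U * T⁻¹) * U * T⁻¹,
    H * (up T C (xp U H 1) * dn C (xp U H m) * up T C (xp U H 1) * (up T C U⁻¹ * dn C U⁻¹ * up T C U⁻¹))⁻¹,
    H * (C * H * C⁻¹) * ((C * H * C⁻¹) * H)⁻¹, C * H * C⁻¹ * U * (C * H * C⁻¹)⁻¹ * (xp U H l)⁻¹,
    T * H * T⁻¹ * (H * (C * H * C⁻¹))⁻¹, T ^ 2 * ((C * H * C⁻¹) ^ e)⁻¹}

/-- The relators between root elements. -/
def pairRels (n : ℕ) : Finset (FreeGroup (Fin 4)) :=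
  {cmr (xp U H n) (C * U * C⁻¹) * (up T C (xp U H n))⁻¹, U * up T C (xp U H n) * (up T C (xp U H n) * U)⁻¹}

theorem card_fixedRels (m l e : ℕ) : (fixedRels m l e).card ≤ 8 := by
  unfold fixedRels
  refine (Finset.card_insert_le _ _).trans (Nat.succ_le_succ ?_)
  refine (Finset.card_insert_le _ _).trans (Nat.succ_le_succ ?_)
  exact Finset.card_le_six

theorem fixed_iff {G : Type*} [Group G] (u t c h : G) (m l e : ℕ) :
    (∀ r ∈ fixedRels m l e, FreeGroup.lift ![u, t, c, h] r = 1) ↔ Fixed u t c h m l e := by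
  simp only [fixedRels, Finset.forall_mem_insert, Finset.mem_singleton, forall_eq]
  simp only [up, dn, xp, U, T, C, H, map_mul, map_inv, map_pow, FreeGroup.lift_apply_of, mul_inv_eq_one,
    Matrix.cons_val_zero, Matrix.cons_val_one, Matrix.cons_val]
  rfl

theorem pair_iff {G : Type*} [Group G] (u t c h : G) (n : ℕ) :
    (∀ r ∈ pairRels n, FreeGroup.lift ![u, t, c, h] r = 1) ↔ Pair u t c h n := by
  simp only [pairRels, Finset.forall_mem_insert, Finset.mem_singleton, forall_eq]
  simp only [up, xp, cmr, U, T, C, H, map_mul, map_inv, map_pow, FreeGroup.lift_apply_of, mul_inv_eq_one,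
    Matrix.cons_val_zero, Matrix.cons_val_one, Matrix.cons_val]
  rfl

variable {F : Type u} [Field F] [Fintype F]

/-- `SL₃` matrices. -/
def mk3 (A : Matrix (Fin 3) (Fin 3) F) (h : A.det = 1) : Matrix.SpecialLinearGroup (Fin 3) F := ⟨A, h⟩

/-- `x₁₂`. -/
def Xm (a : F) : Matrix.SpecialLinearGroup (Fin 3) F :=
  mk3 !![1, a, 0; 0, 1, 0; 0, 0, 1] (by simp [Matrix.det_fin_three])

/-- `t`. -/
def Tm : Matrix.SpecialLinearGroup (Fin 3) F :=
  mk3 !![0, 1, 0; -1, 0, 0; 0, 0, 1] (by simp [Matrix.det_fin_three])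

/-- `c`. -/
def Cm : Matrix.SpecialLinearGroup (Fin 3) F :=
  mk3 !![0, 0, 1; -1, 0, 0; 0, -1, 0] (by simp [Matrix.det_fin_three])

/-- Diagonal elements. -/
def Dm (a b : Fˣ) : Matrix.SpecialLinearGroup (Fin 3) F :=
  mk3 !![(a : F), 0, 0; 0, (b : F), 0; 0, 0, (((a * b)⁻¹ : Fˣ) : F)] (by
    simp [Matrix.det_fin_three]
    field_simp)

omit [Fintype F] in
theorem Xm_add (a b : F) : Xm (a + b) = Xm a * Xm b := by
  refine Matrix.SpecialLinearGroup.ext _ _ fun i j => ?_
  simp only [Matrix.SpecialLinearGroup.coe_mul]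
  fin_cases i <;> fin_cases j <;> simp [Xm, mk3, Matrix.mul_apply, Fin.sum_univ_three, add_comm]

omit [Fintype F] in
theorem Dm_mul (a b a' b' : Fˣ) : Dm a b * Dm a' b' = Dm (a * a') (b * b') := by
  refine Matrix.SpecialLinearGroup.ext _ _ fun i j => ?_
  simp only [Matrix.SpecialLinearGroup.coe_mul]
  fin_cases i <;> fin_cases j <;> simp [Dm, mk3, Matrix.mul_apply, Fin.sum_univ_three, mul_comm, mul_left_comm] <;> ring

omit [Fintype F] in
theorem Dm_pow (a b : Fˣ) (n : ℕ) : Dm a b ^ n = Dm (a ^ n) (b ^ n) := by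
  induction n with
  | zero =>
    rw [pow_zero, pow_zero, pow_zero]
    refine Matrix.SpecialLinearGroup.ext _ _ fun i j => ?_
    fin_cases i <;> fin_cases j <;> simp [Dm, mk3]
  | succ n ih => rw [pow_succ, ih, Dm_mul, ← pow_succ, ← pow_succ]

omit [Fintype F] in
theorem Dm_conj (a b : Fˣ) (x : F) : Dm a b * Xm x * (Dm a b)⁻¹ = Xm ((a : F) * ((b⁻¹ : Fˣ) : F) * x) := by
  rw [mul_inv_eq_iff_eq_mul]
  refine Matrix.SpecialLinearGroup.ext _ _ fun i j => ?_
  simp only [Matrix.SpecialLinearGroup.coe_mul]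
  fin_cases i <;> fin_cases j <;> simp [Dm, Xm, mk3, Matrix.mul_apply, Fin.sum_univ_three]
  field_simp

omit [Fintype F] in
theorem Cm_conj (a b : Fˣ) : Cm * Dm a b * (Cm : Matrix.SpecialLinearGroup (Fin 3) F)⁻¹ = Dm (a * b)⁻¹ a := by
  rw [mul_inv_eq_iff_eq_mul]
  refine Matrix.SpecialLinearGroup.ext _ _ fun i j => ?_
  simp only [Matrix.SpecialLinearGroup.coe_mul]
  fin_cases i <;> fin_cases j <;>
    simp [Dm, Cm, mk3, Matrix.mul_apply, Fin.sum_univ_three] <;> field_simp

omit [Fintype F] in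
theorem Cm_cube : (Cm : Matrix.SpecialLinearGroup (Fin 3) F) ^ 3 = 1 := by
  rw [pow_succ, pow_two]
  refine Matrix.SpecialLinearGroup.ext _ _ fun i j => ?_
  simp only [Matrix.SpecialLinearGroup.coe_mul]
  fin_cases i <;> fin_cases j <;> simp [Cm, mk3, Matrix.mul_apply, Fin.sum_univ_three]

omit [Fintype F] in
theorem Cm_braid : (Cm : Matrix.SpecialLinearGroup (Fin 3) F) = Tm * Cm * Tm * Cm⁻¹ := by
  rw [eq_mul_inv_iff_mul_eq]
  refine Matrix.SpecialLinearGroup.ext _ _ fun i j => ?_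
  simp only [Matrix.SpecialLinearGroup.coe_mul]
  fin_cases i <;> fin_cases j <;> simp [Cm, Tm, mk3, Matrix.mul_apply, Fin.sum_univ_three]

omit [Fintype F] in
theorem Tm_conj (a b : Fˣ) : Tm * Dm a b * (Tm : Matrix.SpecialLinearGroup (Fin 3) F)⁻¹ = Dm b a := by
  rw [mul_inv_eq_iff_eq_mul]
  refine Matrix.SpecialLinearGroup.ext _ _ fun i j => ?_
  simp only [Matrix.SpecialLinearGroup.coe_mul]
  fin_cases i <;> fin_cases j <;> simp [Dm, Tm, mk3, Matrix.mul_apply, Fin.sum_univ_three, mul_comm]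

omit [Fintype F] in
theorem Tm_sq : (Tm : Matrix.SpecialLinearGroup (Fin 3) F) ^ 2 = Dm (-1) (-1) := by
  rw [pow_two]
  refine Matrix.SpecialLinearGroup.ext _ _ fun i j => ?_
  simp only [Matrix.SpecialLinearGroup.coe_mul]
  fin_cases i <;> fin_cases j <;> simp [Dm, Tm, mk3, Matrix.mul_apply, Fin.sum_univ_three]

variable (ω : Fˣ) (e : ℕ) (hω : ∀ s : Fˣ, ∃ n : ℕ, ω ^ n = s) (he : ω ^ e = -1)

/-- `h`. -/
def Hm : Matrix.SpecialLinearGroup (Fin 3) F := Dm ω 1

/-- The standard data in `SL₃`. -/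
def std : Data F (Matrix.SpecialLinearGroup (Fin 3) F) where
  x := Xm
  t := Tm
  c := Cm
  h := Hm ω
  ω := ω
  e := e
  hω := hω
  he := he
  add := Xm_add
  act a := by
    rw [Hm, Dm_conj, inv_one, Units.val_one, mul_one]
  act' a := by
    rw [Hm, Cm_conj, Dm_conj, mul_one, pow_two]
  cube := Cm_cube
  braid := Cm_braid
  tor := by
    rw [Hm, Cm_conj, commute_iff_eq, Dm_mul, Dm_mul, mul_comm ω, mul_comm 1]
  weyl := by
    rw [Hm, Tm_conj, Cm_conj, Dm_mul, mul_one, mul_inv_cancel, one_mul]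
  sq := by
    rw [Hm, Cm_conj, Dm_pow, mul_one, inv_pow, he, inv_neg, inv_one, Tm_sq]

theorem root_std (i j : Fin 3) (hij : i ≠ j) (a : F) :
    (((std ω e hω he).root i j a : Matrix.SpecialLinearGroup (Fin 3) F) : Matrix (Fin 3) (Fin 3) F) =
      Matrix.transvection i j a := by
  have hy : ∀ a : F, (std ω e hω he).y a = mk3 !![1, 0, 0; a, 1, 0; 0, 0, 1] (by simp [Matrix.det_fin_three]) := by
    intro a
    show Tm * Xm (-a) * Tm⁻¹ = _
    rw [mul_inv_eq_iff_eq_mul]
    refine Matrix.SpecialLinearGroup.ext _ _ fun i j => ?_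
    simp only [Matrix.SpecialLinearGroup.coe_mul]
    fin_cases i <;> fin_cases j <;> simp [Tm, Xm, mk3, Matrix.mul_apply, Fin.sum_univ_three]
  have ha1 : ∀ a : F, (std ω e hω he).a1 a = mk3 !![1, 0, 0; 0, 1, a; 0, 0, 1] (by simp [Matrix.det_fin_three]) := by
    intro a
    show Cm * Xm a * Cm⁻¹ = _
    rw [mul_inv_eq_iff_eq_mul]
    refine Matrix.SpecialLinearGroup.ext _ _ fun i j => ?_
    simp only [Matrix.SpecialLinearGroup.coe_mul]
    fin_cases i <;> fin_cases j <;> simp [Cm, Xm, mk3, Matrix.mul_apply, Fin.sum_univ_three]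
  have ha2 : ∀ a : F, (std ω e hω he).a2 a = mk3 !![1, 0, 0; 0, 1, 0; -a, 0, 1] (by simp [Matrix.det_fin_three]) := by
    intro a
    show Cm * (std ω e hω he).a1 a * Cm⁻¹ = _
    rw [ha1, mul_inv_eq_iff_eq_mul]
    refine Matrix.SpecialLinearGroup.ext _ _ fun i j => ?_
    simp only [Matrix.SpecialLinearGroup.coe_mul]
    fin_cases i <;> fin_cases j <;> simp [Cm, mk3, Matrix.mul_apply, Fin.sum_univ_three]
  have hb1 : ∀ a : F, (std ω e hω he).b1 a = mk3 !![1, 0, 0; 0, 1, 0; 0, a, 1] (by simp [Matrix.det_fin_three]) := by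
    intro a
    show Cm * (std ω e hω he).y a * Cm⁻¹ = _
    rw [hy, mul_inv_eq_iff_eq_mul]
    refine Matrix.SpecialLinearGroup.ext _ _ fun i j => ?_
    simp only [Matrix.SpecialLinearGroup.coe_mul]
    fin_cases i <;> fin_cases j <;> simp [Cm, mk3, Matrix.mul_apply, Fin.sum_univ_three]
  have hb2 : ∀ a : F, (std ω e hω he).b2 a = mk3 !![1, 0, -a; 0, 1, 0; 0, 0, 1] (by simp [Matrix.det_fin_three]) := by
    intro a
    show Cm * (std ω e hω he).b1 a * Cm⁻¹ = _
    rw [hb1, mul_inv_eq_iff_eq_mul]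
    refine Matrix.SpecialLinearGroup.ext _ _ fun i j => ?_
    simp only [Matrix.SpecialLinearGroup.coe_mul]
    fin_cases i <;> fin_cases j <;> simp [Cm, mk3, Matrix.mul_apply, Fin.sum_univ_three]
  fin_cases i <;> fin_cases j <;>
    first
    | exact absurd rfl hij
    | (simp only [Data.root]
       simp only [Fin.isValue, Fin.zero_eta, Fin.mk_one, Fin.reduceFinMk, Fin.reduceEq, and_self, and_true, and_false,
         ↓reduceIte, hy, ha1, ha2, hb1, hb2, show (std ω e hω he).x = Xm from rfl]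
       ext k l
       fin_cases k <;> fin_cases l <;> simp [Xm, mk3, Matrix.transvection, Matrix.single_apply])

variable {G : Type*} [Group G]

theorem xp_eq (D : Data F G) (n : ℕ) : xp (D.x 1) D.h n = D.x ((D.ω : F) ^ n) := by
  have := (D.s_h.pow n) 1
  rwa [mul_one, Units.val_pow_eq_pow_val] at this

theorem up_eq (D : Data F G) (a : F) : up D.t D.c (D.x a) = D.root 0 2 a := by
  rw [up, D.t_x]
  rfl

theorem dn_eq (D : Data F G) (a : F) : dn D.c (D.x a) = D.root 2 0 (-a) := by
  show D.a2 a = D.root 2 0 (-a)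
  simp [Data.root]

theorem pair_facts (D : Data F G) (n : ℕ) :
    Pair (D.x 1) D.t D.c D.h n ↔
      cmr (D.x ((D.ω : F) ^ n)) (D.a1 1) = D.b2 (-(D.ω : F) ^ n) ∧ Commute (D.x 1) (D.b2 ((D.ω : F) ^ n)) := by
  rw [Pair, xp_eq, up_eq, show D.root 0 2 ((D.ω : F) ^ n) = D.b2 (-(D.ω : F) ^ n) by simp [Data.root],
    D.b2_neg]
  exact and_congr_right fun _ => ⟨fun h => by simpa using (show Commute _ _ from h).inv_right, fun h => h.inv_right.eq⟩

include hω in
/-- The presentation, given relators for the root group. -/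
theorem presents (m l : ℕ) (hm : ω ^ m = ω⁻¹) (hl : ω ^ l = ω⁻¹ ^ 2) (he' : ω ^ e = -1) (B : Finset (FreeGroup (Fin 4))) (N : Finset ℕ)
    (hspan : ∀ M : AddSubgroup F, ((fun n => (ω : F) ^ n) '' (N : Set ℕ)) ⊆ M → (∀ a ∈ M, (ω : F) ^ 3 * a ∈ M) → M = ⊤)
    (hBok : ∀ r ∈ B, FreeGroup.lift ![Xm 1, Tm, Cm, Hm ω] r = 1)
    (hBread : ∀ {G : Type} [Group G] (u t c h : G), (∀ r ∈ B, FreeGroup.lift ![u, t, c, h] r = 1) →
      ∃ x : F → G, (∀ a b, x (a + b) = x a * x b) ∧ (∀ a, h * x a * h⁻¹ = x ((ω : F) * a)) ∧ x 1 = u) :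
    Nonempty (PresentedGroup (↑(B ∪ fixedRels m l e ∪ N.biUnion pairRels) : Set (FreeGroup (Fin 4))) ≃*
      Matrix.SpecialLinearGroup (Fin 3) F) := by
  classical
  obtain ⟨E, hE⟩ := Cfsg.Agent.S2401.result (K := F) 3 le_rfl
  set rels : Finset (FreeGroup (Fin 4)) := B ∪ fixedRels m l e ∪ N.biUnion pairRels with hrels
  set S := std ω e hω he' with hS
  have hmv : (ω : F) ^ m = ((ω⁻¹ : Fˣ) : F) := by rw [← Units.val_pow_eq_pow_val, hm]
  -- the relations hold in `SL₃`
  have hok : ∀ r ∈ rels, FreeGroup.lift ![Xm 1, Tm, Cm, Hm ω] r = 1 := by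
    have hfix : Fixed (S.x 1) S.t S.c S.h m l e := by
      refine ⟨S.cube, S.braid, ?_, ?_, S.tor.eq, ?_, S.weyl, S.sq⟩
      · rw [S.t_x]
        refine Matrix.SpecialLinearGroup.ext _ _ fun i j => ?_
        have hy := root_std ω e hω he' 1 0 (by decide) (-1)
        simp only [Data.root, Fin.isValue, one_ne_zero, zero_ne_one, Fin.reduceEq, and_self, and_false, false_and,
          ↓reduceIte] at hy
        simp only [Matrix.SpecialLinearGroup.coe_mul]
        rw [hy]
        fin_cases i <;> fin_cases j <;>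
          simp [S, std, Xm, Tm, mk3, Matrix.mul_apply, Matrix.vecMul, dotProduct, Matrix.add_apply, Matrix.one_apply,
            Fin.sum_univ_three, Matrix.transvection, Matrix.single_apply]
      · rw [xp_eq, xp_eq, ← S.x_neg, up_eq, dn_eq, up_eq, dn_eq, pow_one]
        refine Matrix.SpecialLinearGroup.ext _ _ fun i j => ?_
        simp only [Matrix.SpecialLinearGroup.coe_mul]
        simp only [hS, root_std ω e hω he' 0 2 (by decide), root_std ω e hω he' 2 0 (by decide)]
        have : (std ω e hω he').ω = ω := rfl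
        simp only [this, hmv]
        fin_cases i <;> fin_cases j <;>
          simp [std, Hm, Dm, mk3, Matrix.mul_apply, Fin.sum_univ_three, Matrix.transvection, Matrix.single_apply]
      · rw [xp_eq, show (S.ω : F) ^ l = ((ω⁻¹ : Fˣ) : F) ^ 2 * 1 by
          rw [mul_one, ← Units.val_pow_eq_pow_val, ← Units.val_pow_eq_pow_val, show S.ω = ω from rfl, hl]]
        exact S.act' 1
    intro r hr
    simp only [hrels, Finset.mem_union, Finset.mem_biUnion] at hr
    rcases hr with (hr | hr) | ⟨n, hn, hr⟩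
    · exact hBok r hr
    · exact (fixed_iff _ _ _ _ m l e).2 hfix r hr
    · refine (pair_iff (Xm (1 : F)) Tm Cm (Hm ω) n).2 ((pair_facts S n).2 ?_) r hr
      constructor
      · rw [show S.b2 (-(S.ω : F) ^ n) = S.root 0 2 ((S.ω : F) ^ n) by simp [Data.root],
          show S.a1 1 = S.root 1 2 1 by simp [Data.root],
          show S.x ((S.ω : F) ^ n) = S.root 0 1 ((S.ω : F) ^ n) by simp [Data.root]]
        rw [cmr, mul_inv_eq_iff_eq_mul, mul_inv_eq_iff_eq_mul]
        refine Matrix.SpecialLinearGroup.ext _ _ fun i j => ?_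
        simp only [Matrix.SpecialLinearGroup.coe_mul]
        simp only [hS, root_std ω e hω he' 0 2 (by decide), root_std ω e hω he' 1 2 (by decide),
          root_std ω e hω he' 0 1 (by decide)]
        fin_cases i <;> fin_cases j <;>
          simp [Matrix.mul_apply, Fin.sum_univ_three, Matrix.transvection, Matrix.single_apply]
      · rw [show S.b2 ((S.ω : F) ^ n) = S.root 0 2 (-(S.ω : F) ^ n) by simp [Data.root],
          show S.x 1 = S.root 0 1 1 by simp [Data.root]]
        refine Matrix.SpecialLinearGroup.ext _ _ fun i j => ?_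
        simp only [Matrix.SpecialLinearGroup.coe_mul]
        simp only [hS, root_std ω e hω he' 0 2 (by decide), root_std ω e hω he' 0 1 (by decide)]
        fin_cases i <;> fin_cases j <;>
          simp [Matrix.mul_apply, Fin.sum_univ_three, Matrix.transvection, Matrix.single_apply]
  let P := PresentedGroup (↑rels : Set (FreeGroup (Fin 4)))
  let π : P →* Matrix.SpecialLinearGroup (Fin 3) F := PresentedGroup.toGroup hok
  set u : P := PresentedGroup.of 0
  set t : P := PresentedGroup.of 1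
  set c : P := PresentedGroup.of 2
  set h : P := PresentedGroup.of 3
  have hlift : ∀ r ∈ rels, FreeGroup.lift ![u, t, c, h] r = 1 := fun r hr => by
    have : FreeGroup.lift ![u, t, c, h] = PresentedGroup.mk (↑rels : Set (FreeGroup (Fin 4))) := by
      ext i
      fin_cases i <;> simp [u, t, c, h, PresentedGroup.of]
    rw [this]
    exact PresentedGroup.one_of_mem (Finset.mem_coe.2 hr)
  obtain ⟨x, hadd, hact, hx1⟩ := hBread u t c h fun r hr =>
    hlift r (Finset.mem_union_left _ (Finset.mem_union_left _ hr))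
  obtain ⟨f1, f2, f3, f4, f5, f6, f7, f8⟩ := (fixed_iff u t c h m l e).1 fun r hr =>
    hlift r (Finset.mem_union_left _ (Finset.mem_union_right _ hr))
  have hsc : ∀ (n : ℕ) (a : F), h ^ n * x a * (h ^ n)⁻¹ = x ((ω : F) ^ n * a) :=
    fun n a => Cfsg.Agent.Lib.SLTwoPres.Final.conj_pow_act hact n a
  have hact' : ∀ a, c * h * c⁻¹ * x a * (c * h * c⁻¹)⁻¹ = x (((ω⁻¹ : Fˣ) : F) ^ 2 * a) := by
    intro a
    have hl' : (ω : F) ^ l = ((ω⁻¹ : Fˣ) : F) ^ 2 := by
      rw [← Units.val_pow_eq_pow_val, hl, Units.val_pow_eq_pow_val]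
    rcases eq_or_ne a 0 with rfl | ha
    · rw [mul_zero, show x 0 = 1 by
        have h0 := hadd 0 0
        rw [add_zero] at h0
        exact left_eq_mul.1 h0]
      group
    obtain ⟨n, hn⟩ := hω (Units.mk0 a ha)
    have hn' : (ω : F) ^ n = a := by rw [← Units.val_pow_eq_pow_val, hn, Units.val_mk0]
    have e1 := hsc n 1
    rw [mul_one, hn', hx1] at e1
    have hcn : Commute (c * h * c⁻¹) (h ^ n) := (show Commute h (c * h * c⁻¹) from f5).symm.pow_right n
    calc c * h * c⁻¹ * x a * (c * h * c⁻¹)⁻¹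
        = (c * h * c⁻¹ * h ^ n) * u * (c * h * c⁻¹ * h ^ n)⁻¹ := by rw [← e1]; group
      _ = h ^ n * (c * h * c⁻¹ * u * (c * h * c⁻¹)⁻¹) * (h ^ n)⁻¹ := by rw [hcn.eq]; group
      _ = h ^ n * x ((ω : F) ^ l) * (h ^ n)⁻¹ := by
        rw [f6, xp, ← hx1, hsc, mul_one]
      _ = x (((ω⁻¹ : Fˣ) : F) ^ 2 * a) := by rw [hsc, hn', hl', mul_comm]
  let D : Data F P :=
    { x := x, t := t, c := c, h := h, ω := ω, e := e, hω := hω, he := he', add := hadd, act := hact,
      act' := hact', cube := f1, braid := f2, tor := f5, weyl := f7, sq := f8 }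
  have hpair : ∀ n ∈ N, cmr (D.x ((ω : F) ^ n)) (D.a1 1) = D.b2 (-(ω : F) ^ n) ∧
      Commute (D.x 1) (D.b2 ((ω : F) ^ n)) := fun n hn => by
    refine (pair_facts D n).1 ?_
    show Pair (x 1) t c h n
    rw [hx1]
    exact (pair_iff u t c h n).1 fun r hr =>
      hlift r (Finset.mem_union_right _ (Finset.mem_biUnion.2 ⟨n, hn, hr⟩))
  obtain ⟨ψ, hψ⟩ := D.exists_steinberg ((fun n => (ω : F) ^ n) '' (N : Set ℕ)) hspan
    (by rintro _ ⟨n, hn, rfl⟩; exact (hpair n hn).2) (by rintro _ ⟨n, hn, rfl⟩; exact (hpair n hn).1)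
  have hroot : ∀ (i j : Fin 3), i ≠ j → ∀ a, D.root i j a ∈ ψ.range := fun i j hij a =>
    ⟨_, hψ ⟨(i, j), hij⟩ a⟩
  have hu : u ∈ ψ.range := by
    have := hroot 0 1 (by decide) 1
    rwa [show D.root 0 1 1 = u by simp [Data.root]; exact hx1] at this
  have ht : t ∈ ψ.range := by
    have e1 : u * D.root 1 0 (-1) * u = t := by
      rw [show D.root 1 0 (-1) = t * x 1 * t⁻¹ by simp [Data.root, Data.y, D], hx1]
      exact f3
    rw [← e1]
    exact mul_mem (mul_mem hu (hroot 1 0 (by decide) _)) hu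
  have hc : c ∈ ψ.range := by
    have e1 : c * t * c⁻¹ = D.root 1 2 1 * D.root 2 1 (-1) * D.root 1 2 1 := by
      rw [show D.root 1 2 1 = c * x 1 * c⁻¹ by simp [Data.root, Data.a1, D],
        show D.root 2 1 (-1) = c * (t * x 1 * t⁻¹) * c⁻¹ by simp [Data.root, Data.b1, Data.y, D], hx1]
      calc c * t * c⁻¹ = c * (u * (t * u * t⁻¹) * u) * c⁻¹ := by rw [f3]
        _ = _ := by group
    have : c = t * (c * t * c⁻¹) := by
      calc c = t * c * t * c⁻¹ := f2
        _ = _ := by group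
    rw [this, e1]
    exact mul_mem ht (mul_mem (mul_mem (hroot 1 2 (by decide) _) (hroot 2 1 (by decide) _)) (hroot 1 2 (by decide) _))
  have hh : h ∈ ψ.range := by
    rw [f4]
    have hmem : ∀ a, up t c (x a) ∈ ψ.range ∧ dn c (x a) ∈ ψ.range := fun a => by
      refine ⟨?_, ?_⟩
      · rw [show up t c (x a) = D.root 0 2 a from up_eq D a]; exact hroot 0 2 (by decide) _
      · rw [show dn c (x a) = D.root 2 0 (-a) from dn_eq D a]; exact hroot 2 0 (by decide) _
    have hinv : u⁻¹ = x (-1) := by rw [← hx1]; exact (D.x_neg 1).symm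
    have hxp : ∀ n, xp u h n = x ((ω : F) ^ n) := fun n => by rw [← hx1]; exact xp_eq D n
    rw [hxp, hxp, hinv]
    exact mul_mem (mul_mem (mul_mem (hmem _).1 (hmem _).2) (hmem _).1)
      (mul_mem (mul_mem (hmem _).1 (hmem _).2) (hmem _).1)
  have hsurj : Function.Surjective ψ := by
    rw [← MonoidHom.range_eq_top, eq_top_iff, ← PresentedGroup.closure_range_of, Subgroup.closure_le]
    rintro _ ⟨i, rfl⟩
    fin_cases i
    exacts [hu, ht, hc, hh]
  have hπx : ∀ a, π (x a) = Xm a := by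
    intro a
    have hπu : π u = Xm 1 := PresentedGroup.toGroup.of _
    have hπh : π h = Hm ω := PresentedGroup.toGroup.of _
    rcases eq_or_ne a 0 with rfl | ha
    · rw [show x 0 = 1 from D.x_zero, map_one]
      exact (show S.x 0 = 1 from S.x_zero).symm
    obtain ⟨n, hn⟩ := hω (Units.mk0 a ha)
    have hn' : (ω : F) ^ n = a := by rw [← Units.val_pow_eq_pow_val, hn, Units.val_mk0]
    rw [← hn', ← show xp (D.x 1) D.h n = x ((ω : F) ^ n) from xp_eq D n, xp, map_mul, map_mul, map_inv, map_pow,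
      show D.h = h from rfl, show D.x 1 = u from hx1, hπh, hπu]
    exact xp_eq S n
  have hπ : π.comp ψ = E.toMonoidHom := by
    refine PresentedGroup.ext fun a => ?_
    obtain ⟨⟨⟨i, j⟩, hij⟩, a⟩ := a
    rw [MonoidHom.comp_apply, hψ]
    refine Subtype.ext ?_
    rw [show (E.toMonoidHom (PresentedGroup.of (⟨(i, j), hij⟩, a)) : Matrix (Fin 3) (Fin 3) F) =
      Matrix.transvection i j a from hE _ _, ← root_std ω e hω he' i j hij a]
    congr 1
    have hπt : π t = Tm := PresentedGroup.toGroup.of _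
    have hπc : π c = Cm := PresentedGroup.toGroup.of _
    simp only [Data.root, Data.a2, Data.b2, Data.a1, Data.b1, Data.y, apply_ite π, map_mul, map_inv]
    simp only [D, std, hπx, hπt, hπc]
    rfl
  refine ⟨MulEquiv.ofBijective π ⟨?_, ?_⟩⟩
  · intro a b hab
    obtain ⟨a', rfl⟩ := hsurj a
    obtain ⟨b', rfl⟩ := hsurj b
    have h1 : (π.comp ψ) a' = (π.comp ψ) b' := hab
    rw [hπ] at h1
    exact congrArg ψ (E.injective h1)
  · intro g
    refine ⟨ψ (E.symm g), ?_⟩
    have h1 : (π.comp ψ) (E.symm g) = g := by rw [hπ]; exact E.apply_symm_apply g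
    exact h1

/-- The powers of `u` by a scalar relation commute. -/
theorem commute_of_power {G : Type*} [Group G] {u h : G} (k : ℤ) (hk : h * u * h⁻¹ = u ^ k) (n : ℕ) :
    Commute u (h ^ (1 * n) * u * (h ^ (1 * n))⁻¹) := by
  have : ∀ n : ℕ, ∃ l : ℤ, h ^ n * u * (h ^ n)⁻¹ = u ^ l := fun n => by
    induction n with
    | zero => exact ⟨1, by simp⟩
    | succ n ih =>
      obtain ⟨l, hl⟩ := ih
      refine ⟨k * l, ?_⟩
      rw [pow_succ', show h * h ^ n * u * (h * h ^ n)⁻¹ = h * (h ^ n * u * (h ^ n)⁻¹) * h⁻¹ by group, hl,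
        ← conj_zpow, hk, ← _root_.zpow_mul]
  obtain ⟨l, hl⟩ := this (1 * n)
  rw [hl]
  exact Commute.self_zpow u l

theorem pev_matrix (w : Fˣ) {p : ℕ} [Fact p.Prime] [Algebra (ZMod p) F] (P : (ZMod p)[X]) :
    pev (Xm (1 : F)) (Hm w) 1 P = Xm (aeval (w : F) P) := by
  have h1 : ∀ k, Hm w ^ (1 * k) * Xm (1 : F) * (Hm w ^ (1 * k))⁻¹ = Xm ((w : F) ^ k) := fun k => by
    rw [one_mul, Hm, Dm_pow, one_pow, Dm_conj, inv_one, Units.val_one, mul_one, mul_one, Units.val_pow_eq_pow_val]
  have hpw : ∀ (b : F) (n : ℕ), Xm b ^ n = Xm ((n : F) * b) := fun b n => by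
    induction n with
    | zero =>
      rw [pow_zero]
      refine Matrix.SpecialLinearGroup.ext _ _ fun i j => ?_
      fin_cases i <;> fin_cases j <;> simp [Xm, mk3]
    | succ n ih => rw [pow_succ, ih, ← Xm_add, Nat.cast_succ, add_mul, one_mul]
  have h0 : (Xm (0 : F)) = 1 := by
    have := hpw 1 0
    rw [pow_zero, Nat.cast_zero, zero_mul] at this
    exact this.symm
  rw [pev, aeval_eq_sum_range, ← List.toFinset_range, List.sum_toFinset _ List.nodup_range]
  induction List.range (P.natDegree + 1) with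
  | nil => rw [List.map_nil, List.prod_nil, List.map_nil, List.sum_nil, h0]
  | cons k L ih =>
    rw [List.map_cons, List.prod_cons, List.map_cons, List.sum_cons, Xm_add, ih, h1, hpw]
    congr 2
    rw [Algebra.smul_def]
    congr 1
    conv_rhs => rw [← ZMod.natCast_zmod_val (P.coeff k), map_natCast]

omit [Fintype F] in
theorem tri_matrix (w : Fˣ) (j : ℕ) (hj : (w : F) ^ j = 1 + (w : F)) :
    Hm w ^ j * Xm (1 : F) * (Hm w ^ j)⁻¹ = Xm 1 * (Hm w ^ 1 * Xm (1 : F) * (Hm w ^ 1)⁻¹) := by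
  rw [Hm, Dm_pow, Dm_pow, one_pow, one_pow, Dm_conj, Dm_conj, inv_one, Units.val_one, mul_one, mul_one, mul_one,
    mul_one, pow_one, Units.val_pow_eq_pow_val, hj, Xm_add]

/-- Cubes span every finite field other than the one with four elements. -/
theorem cubes_span (hq : Fintype.card F ≠ 4) (hω : ∀ s : Fˣ, ∃ n : ℕ, ω ^ n = s) (M : AddSubgroup F) (h1 : (1 : F) ∈ M)
    (hM : ∀ a ∈ M, (ω : F) ^ 3 * a ∈ M) : M = ⊤ := by
  classical
  let S : Set F := Set.range fun m : ℕ => ((ω : F) ^ 3) ^ m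
  let K := AddSubgroup.closure S
  have hKM : K ≤ M := (AddSubgroup.closure_le M).2 (by
    rintro _ ⟨m, rfl⟩
    induction m with
    | zero => simpa using h1
    | succ m ih => show ((ω : F) ^ 3) ^ (m + 1) ∈ M; rw [pow_succ']; exact hM _ ih)
  have hmulS : ∀ a ∈ K, ∀ b ∈ K, a * b ∈ K := fun a ha b hb => by
    induction ha, hb using AddSubgroup.closure_induction₂ with
    | mem x y hx hy =>
      obtain ⟨i, rfl⟩ := hx
      obtain ⟨j, rfl⟩ := hy
      exact AddSubgroup.subset_closure ⟨i + j, pow_add _ i j⟩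
    | zero_left x _ => simp
    | zero_right x _ => simp
    | add_left x y z _ _ _ h h' => rw [add_mul]; exact add_mem h h'
    | add_right x y z _ _ _ h h' => rw [mul_add]; exact add_mem h h'
    | neg_left x y _ _ h => rw [neg_mul]; exact neg_mem h
    | neg_right x y _ _ h => rw [mul_neg]; exact neg_mem h
  have hK1 : (1 : F) ∈ K := AddSubgroup.subset_closure ⟨0, pow_zero _⟩
  have hKinv : ∀ a ∈ K, a⁻¹ ∈ K := fun a ha => by
    rcases eq_or_ne a 0 with rfl | h0
    · simp
    have : a⁻¹ = a ^ (Fintype.card F - 2) := by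
      refine inv_eq_of_mul_eq_one_right ?_
      rw [← pow_succ', show Fintype.card F - 2 + 1 = Fintype.card F - 1 by
        have := Fintype.one_lt_card (α := F); omega, FiniteField.pow_card_sub_one_eq_one a h0]
    rw [this]
    induction (Fintype.card F - 2) with
    | zero => simpa using hK1
    | succ n ih => rw [pow_succ]; exact hmulS _ ih _ ha
  by_contra hne
  obtain ⟨θ, hθ⟩ : ∃ θ, θ ∉ K := by
    by_contra h
    push Not at h
    exact hne (eq_top_iff.2 fun x _ => hKM (h x))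
  let Sf : Finset F := Finset.univ.filter (· ∈ K)
  have hsq : Sf.card * Sf.card ≤ Fintype.card F := by
    rw [← Finset.card_product, ← Finset.card_univ]
    refine Finset.card_le_card_of_injOn (fun ab => ab.1 + ab.2 * θ) (fun _ _ => Finset.mem_univ _) ?_
    rintro ⟨a, b⟩ hab ⟨a', b'⟩ hab' hEq
    simp only [Finset.coe_product, Set.mem_prod, Finset.mem_coe, Sf, Finset.mem_filter, Finset.mem_univ, true_and] at hab hab'
    have h2 : (b - b') * θ = a' - a := by
      have : a + b * θ = a' + b' * θ := hEq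
      linear_combination this
    by_cases hb : b = b'
    · subst hb
      rw [sub_self, zero_mul] at h2
      rw [sub_eq_zero.1 h2.symm]
    · refine absurd ?_ hθ
      rw [show θ = (b - b')⁻¹ * (a' - a) by rw [← h2, ← mul_assoc, inv_mul_cancel₀ (sub_ne_zero.2 hb), one_mul]]
      exact hmulS _ (hKinv _ (sub_mem hab.2 hab'.2)) _ (sub_mem hab'.1 hab.1)
  let Cb : Finset F := (Finset.univ.filter (fun z : F => z ≠ 0)).image (· ^ 3)
  have hcub : (Finset.univ.filter (fun z : F => z ≠ 0)).card ≤ 3 * Cb.card := by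
    refine Finset.card_le_mul_card_image _ 3 fun b hb => ?_
    refine (Finset.card_le_card (t := (X ^ 3 - Polynomial.C b : F[X]).roots.toFinset) fun z hz => ?_).trans
      ((Multiset.toFinset_card_le _).trans ((card_roots' _).trans (natDegree_X_pow_sub_C (n := 3) (r := b)).le))
    rw [Finset.mem_filter] at hz
    rw [Multiset.mem_toFinset, mem_roots']
    exact ⟨X_pow_sub_C_ne_zero (by norm_num) b, by simp [IsRoot, hz.2]⟩
  have hsub : insert 0 Cb ⊆ Sf := by
    intro z hz
    rcases Finset.mem_insert.1 hz with rfl | hz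
    · simp [Sf]
    obtain ⟨w, hw, rfl⟩ := Finset.mem_image.1 hz
    obtain ⟨n, hn⟩ := hω (Units.mk0 w (Finset.mem_filter.1 hw).2)
    refine Finset.mem_filter.2 ⟨Finset.mem_univ _, AddSubgroup.subset_closure ⟨n, ?_⟩⟩
    show ((ω : F) ^ 3) ^ n = w ^ 3
    rw [← pow_mul, mul_comm, pow_mul, ← Units.val_pow_eq_pow_val, hn, Units.val_mk0]
  have hcard : Cb.card + 1 ≤ Sf.card := by
    rw [← Finset.card_insert_of_notMem (show (0 : F) ∉ Cb from fun h => ?_)]
    · exact Finset.card_le_card hsub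
    · obtain ⟨w, hw, hw'⟩ := Finset.mem_image.1 h
      exact (Finset.mem_filter.1 hw).2 (pow_eq_zero_iff (by norm_num : 3 ≠ 0) |>.1 hw')
  rw [Finset.filter_ne' Finset.univ (0 : F), Finset.card_erase_of_mem (Finset.mem_univ _), Finset.card_univ] at hcub
  have : 2 ≤ Fintype.card F := Fintype.one_lt_card
  have hs : Sf.card ≤ 2 := by
    by_contra hgt
    push Not at hgt
    have := Nat.mul_le_mul_right Sf.card (show 3 ≤ Sf.card by omega)
    omega
  have : Cb.card ≤ 1 := by omega
  have h4 : Fintype.card F ≤ 4 := by omega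
  have h22 : 4 ≤ Fintype.card F := by
    have : 2 ≤ Sf.card := by
      have : ({0, 1} : Finset F) ⊆ Sf := by
        intro z hz
        simp only [Finset.mem_insert, Finset.mem_singleton] at hz
        rcases hz with rfl | rfl <;> simp [Sf, hK1]
      have := Finset.card_le_card this
      rwa [Finset.card_pair zero_ne_one] at this
    nlinarith
  omega

/-- `SL₃(q)` has a presentation with four generators and fourteen relations. -/
theorem main (F : Type u) [Field F] [Fintype F] :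
    ∃ rels : Finset (FreeGroup (Fin 4)), rels.card ≤ 14 ∧
      Nonempty (PresentedGroup (↑rels : Set (FreeGroup (Fin 4))) ≃* Matrix.SpecialLinearGroup (Fin 3) F) := by
  classical
  obtain ⟨p, hpF⟩ := CharP.exists F
  obtain ⟨k, hpp, hk⟩ := FiniteField.card F p
  haveI := Fact.mk hpp
  letI : Algebra (ZMod p) F := ZMod.algebra F p
  obtain ⟨ω, hωo⟩ := Cfsg.Agent.Lib.SLTwoPres.Final.exists_generator F
  have hω : ∀ s : Fˣ, ∃ n : ℕ, ω ^ n = s := Cfsg.Agent.Lib.SLTwoPres.Main.card_eq ω hωo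
  obtain ⟨e, he⟩ := hω (-1)
  obtain ⟨m, hm⟩ := hω ω⁻¹
  obtain ⟨l, hl⟩ := hω (ω⁻¹ ^ 2)
  have hsurj : ∀ a : F, ∃ P : (ZMod p)[X], aeval (ω : F) P = a := fun a => by
    rcases eq_or_ne a 0 with rfl | ha
    · exact ⟨0, map_zero _⟩
    · obtain ⟨n, hn⟩ := hω (Units.mk0 a ha)
      exact ⟨X ^ n, by rw [map_pow, aeval_X, ← Units.val_pow_eq_pow_val, hn, Units.val_mk0]⟩
  have hXP : (aeval (ω : F)) (X : (ZMod p)[X]) = (ω : F) := aeval_X _
  have hpevX : ∀ {G : Type} [Group G] (u h : G), pev u h 1 (X : (ZMod p)[X]) = h * u * h⁻¹ := fun {G} _ u h => by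
    haveI : Fact (1 < p) := ⟨hpp.one_lt⟩
    simp [pev, List.range_succ, ZMod.val_one]
  -- the relators of the root group and their meaning
  let Bp : FreeGroup (Fin 4) := U ^ p
  let Bm : FreeGroup (Fin 4) := pev U H 1 (minpoly (ZMod p) (ω : F))
  let Bt : ℕ → FreeGroup (Fin 4) := fun j => H ^ j * U * (H ^ j)⁻¹ * (U * (H ^ 1 * U * (H ^ 1)⁻¹))⁻¹
  let Bc : FreeGroup (Fin 4) := U * (H ^ 1 * U * (H ^ 1)⁻¹) * ((H ^ 1 * U * (H ^ 1)⁻¹) * U)⁻¹
  have okp : FreeGroup.lift ![Xm (1 : F), Tm, Cm, Hm ω] Bp = 1 := by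
    have := pev_matrix ω (p := p) (Polynomial.C (0 : ZMod p))
    have hX : ∀ n : ℕ, Xm (1 : F) ^ n = Xm (n : F) := fun n => by
      induction n with
      | zero =>
        rw [pow_zero]
        refine Matrix.SpecialLinearGroup.ext _ _ fun i j => ?_
        fin_cases i <;> fin_cases j <;> simp [Xm, mk3]
      | succ n ih => rw [pow_succ, ih, ← Xm_add, Nat.cast_succ]
    simp only [Bp, U, map_pow, FreeGroup.lift_apply_of, Matrix.cons_val_zero]
    rw [hX, CharP.cast_eq_zero F p]
    exact (std ω e hω he).x_zero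
  have okm : FreeGroup.lift ![Xm (1 : F), Tm, Cm, Hm ω] Bm = 1 := by
    simp only [Bm, map_pev, U, H, FreeGroup.lift_apply_of, Matrix.cons_val_zero, Matrix.cons_val]
    rw [pev_matrix, minpoly.aeval]
    exact (std ω e hω he).x_zero
  have okt : ∀ j, (ω : F) ^ j = 1 + (ω : F) → FreeGroup.lift ![Xm (1 : F), Tm, Cm, Hm ω] (Bt j) = 1 := fun j hj => by
    simp only [Bt, U, H, map_mul, map_inv, map_pow, FreeGroup.lift_apply_of, mul_inv_eq_one, Matrix.cons_val_zero,
      Matrix.cons_val]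
    exact tri_matrix ω j hj
  have okc : FreeGroup.lift ![Xm (1 : F), Tm, Cm, Hm ω] Bc = 1 := by
    simp only [Bc, U, H, map_mul, map_inv, map_pow, FreeGroup.lift_apply_of, mul_inv_eq_one, Matrix.cons_val_zero,
      Matrix.cons_val, pow_one]
    rw [Hm, Dm_conj, ← Xm_add, ← Xm_add, add_comm]
  have finish : ∀ {G : Type} [Group G] (u h : G), u ^ p = 1 →
      (∀ n : ℕ, Commute u (h ^ (1 * n) * u * (h ^ (1 * n))⁻¹)) → pev u h 1 (minpoly (ZMod p) (ω : F)) = 1 →
      ∃ x : F → G, (∀ a b, x (a + b) = x a * x b) ∧ (∀ a, h * x a * h⁻¹ = x ((ω : F) * a)) ∧ x 1 = u := by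
    intro G _ u h hu hc hmn
    obtain ⟨x, h1, h2, -, h4⟩ := exists_hom u h 1 (ω : F) (ω : F) hsurj hu hc hmn X hXP (hpevX u h).symm
    exact ⟨x, h1, h2, h4⟩
  -- the spanning sets
  have hspan1 : Fintype.card F ≠ 4 → ∀ M : AddSubgroup F, ((fun n => (ω : F) ^ n) '' (({0} : Finset ℕ) : Set ℕ)) ⊆ M →
      (∀ a ∈ M, (ω : F) ^ 3 * a ∈ M) → M = ⊤ := fun h4 M hsub hM =>
    cubes_span ω h4 hω M (hsub ⟨0, by simp, pow_zero _⟩) hM
  have hcardU : ∀ (B : Finset (FreeGroup (Fin 4))) (N : Finset ℕ),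
      (B ∪ fixedRels m l e ∪ N.biUnion pairRels).card ≤ B.card + 8 + 2 * N.card := fun B N => by
    refine (Finset.card_union_le _ _).trans (Nat.add_le_add
      ((Finset.card_union_le _ _).trans (Nat.add_le_add le_rfl (card_fixedRels m l e)))
      (Finset.card_biUnion_le.trans ?_))
    rw [mul_comm, ← smul_eq_mul, ← Finset.sum_const]
    exact Finset.sum_le_sum fun n _ => Finset.card_le_two
  have hq2 : 2 ≤ Fintype.card F := Fintype.one_lt_card
  have hj : 4 ≤ Fintype.card F → ∃ j, (ω : F) ^ j = 1 + (ω : F) := fun hq => by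
    have h0 : 1 + (ω : F) ≠ 0 := fun h => by
      have h1 : ω ^ 2 = 1 := Units.ext (by
        rw [Units.val_pow_eq_pow_val, eq_neg_of_add_eq_zero_right h, neg_one_sq, Units.val_one])
      have := Nat.le_of_dvd two_pos (orderOf_dvd_of_pow_eq_one h1)
      omega
    obtain ⟨j, hj⟩ := hω (Units.mk0 _ h0)
    exact ⟨j, by rw [← Units.val_pow_eq_pow_val, hj, Units.val_mk0]⟩
  by_cases h4 : Fintype.card F = 4
  · obtain rfl : p = 2 := by
      have : p ∣ 2 ^ 2 := by rw [show (2 : ℕ) ^ 2 = 4 from rfl, ← h4, hk]; exact dvd_pow_self p k.2.ne'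
      exact (Nat.prime_dvd_prime_iff_eq hpp Nat.prime_two).1 (hpp.dvd_of_dvd_pow this)
    haveI : CharP F 2 := hpF
    have hord : orderOf ω = 3 := by rw [hωo, h4]
    have hw3 : (ω : F) ^ 3 = 1 := by
      rw [← Units.val_pow_eq_pow_val, ← hord, pow_orderOf_eq_one, Units.val_one]
    have hne1 : (ω : F) ≠ 1 := fun h => by
      have : ω = 1 := Units.ext h
      rw [this, orderOf_one] at hord
      omega
    have hrel : (ω : F) ^ 2 + (ω : F) + 1 = 0 := by
      refine (mul_eq_zero.1 (show ((ω : F) - 1) * ((ω : F) ^ 2 + ω + 1) = 0 by linear_combination hw3)).resolve_left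
        (sub_ne_zero.2 hne1)
    have hj2 : (ω : F) ^ 2 = 1 + (ω : F) := by
      have h2 : (2 : F) = 0 := CharTwo.two_eq_zero
      linear_combination hrel - h2 * ((ω : F) + 1)
    have hmin : minpoly (ZMod 2) (ω : F) = X ^ 2 + X + 1 := by
      refine (minpoly.unique (ZMod 2) (ω : F) (by monicity!) (by simpa using hrel) fun Q hQ hQ0 => ?_).symm
      rw [degree_eq_natDegree hQ.ne_zero]
      refine le_trans (le_of_eq (show (X ^ 2 + X + 1 : (ZMod 2)[X]).degree = ((2 : ℕ) : WithBot ℕ) by compute_degree!)) ?_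
      refine WithBot.coe_le_coe.2 (Nat.le_of_not_lt fun hlt => ?_)
      have hlt' : Q.natDegree < 2 := hlt
      rcases (show Q.natDegree = 0 ∨ Q.natDegree = 1 by omega) with hd | hd
      · rw [eq_one_of_monic_natDegree_zero hQ hd, map_one] at hQ0
        exact one_ne_zero hQ0
      · rw [hQ.eq_X_add_C hd, map_add, aeval_X, aeval_C] at hQ0
        have hz : ∀ z : ZMod 2, z = 0 ∨ z = 1 := fun z => match z with | 0 => Or.inl rfl | 1 => Or.inr rfl
        rcases hz (Q.coeff 0) with h | h <;> rw [h] at hQ0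
        · rw [map_zero, add_zero] at hQ0
          exact ω.ne_zero hQ0
        · rw [map_one] at hQ0
          exact hne1 (by rw [eq_neg_of_add_eq_zero_left hQ0, CharTwo.neg_eq])
    refine ⟨{Bp, Bt 2} ∪ fixedRels m l e ∪ ({0, 1} : Finset ℕ).biUnion pairRels, ?_, ?_⟩
    · exact (hcardU _ _).trans (by
        have := Finset.card_le_two (a := Bp) (b := Bt 2)
        simp
        omega)
    refine presents ω e hω m l hm hl he _ _ (fun M hsub hM => ?_) ?_ ?_
    · have m1 : (1 : F) ∈ M := hsub ⟨0, by simp, pow_zero _⟩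
      have m2 : (ω : F) ∈ M := hsub ⟨1, by simp, pow_one _⟩
      refine eq_top_iff.2 fun a _ => ?_
      rcases eq_or_ne a 0 with rfl | ha
      · exact M.zero_mem
      obtain ⟨n, hn⟩ := hω (Units.mk0 a ha)
      have hn' : (ω : F) ^ (n % 3) = a := by
        rw [← Units.val_pow_eq_pow_val, ← hord, pow_mod_orderOf, hn, Units.val_mk0]
      rw [← hn']
      rcases (show n % 3 = 0 ∨ n % 3 = 1 ∨ n % 3 = 2 by omega) with h | h | h <;> rw [h]
      · rwa [pow_zero]
      · rwa [pow_one]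
      · rw [hj2]; exact add_mem m1 m2
    · intro r hr
      simp only [Finset.mem_insert, Finset.mem_singleton] at hr
      rcases hr with rfl | rfl
      exacts [okp, okt 2 hj2]
    · intro G _ u t c h hr
      have hu : u ^ 2 = 1 := by
        have := hr Bp (by simp)
        simpa [Bp, U] using this
      have hb : h ^ 2 * u * (h ^ 2)⁻¹ = u * (h ^ 1 * u * (h ^ 1)⁻¹) := by
        have := hr (Bt 2) (by simp)
        simp only [Bt, U, H, map_mul, map_inv, map_pow, FreeGroup.lift_apply_of, mul_inv_eq_one, Matrix.cons_val_zero,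
          Matrix.cons_val] at this
        exact this
      have hv : (h ^ 1 * u * (h ^ 1)⁻¹) ^ 2 = 1 := by rw [← conj_pow', hu, mul_one, mul_inv_cancel]
      have huv : (u * (h ^ 1 * u * (h ^ 1)⁻¹)) ^ 2 = 1 := by rw [← hb, ← conj_pow', hu, mul_one, mul_inv_cancel]
      have hsymm := Cfsg.Agent.Lib.SLTwoPres.Final.inv_of_sq _ huv
      rw [_root_.mul_inv_rev, Cfsg.Agent.Lib.SLTwoPres.Final.inv_of_sq u hu,
        Cfsg.Agent.Lib.SLTwoPres.Final.inv_of_sq _ hv] at hsymm
      refine finish u h hu (commute_of_triangle hsymm.symm hb) ?_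
      rw [hmin, pev, show (X ^ 2 + X + 1 : (ZMod 2)[X]).natDegree = 2 by compute_degree!]
      simp only [List.range_succ, List.range_zero, List.nil_append, List.singleton_append, List.cons_append,
        List.map_cons, List.map_nil, List.prod_cons, List.prod_nil, mul_one, one_mul, coeff_add, coeff_X_pow, coeff_X,
        coeff_one]
      norm_num [ZMod.val_one]
      have h3 := inv_eq_of_mul_eq_one_left (by rw [← pow_two]; exact huv :
        (u * (h ^ 1 * u * (h ^ 1)⁻¹)) * (u * (h ^ 1 * u * (h ^ 1)⁻¹)) = 1)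
      rw [pow_one] at hb huv
      rw [hb, ← mul_assoc, ← pow_two, huv]
  · rcases eq_or_lt_of_le (Nat.one_le_iff_ne_zero.2 k.2.ne' : 1 ≤ (k : ℕ)) with hk1 | hk1
    · refine ⟨{Bp, Bm} ∪ fixedRels m l e ∪ ({0} : Finset ℕ).biUnion pairRels, ?_, ?_⟩
      · exact (hcardU _ _).trans (by
          have := Finset.card_le_two (a := Bp) (b := Bm)
          simp
          omega)
      refine presents ω e hω m l hm hl he _ _ (hspan1 h4) ?_ ?_
      · intro r hr
        simp only [Finset.mem_insert, Finset.mem_singleton] at hr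
        rcases hr with rfl | rfl
        exacts [okp, okm]
      · intro G _ u t c h hr
        have hu : u ^ p = 1 := by
          have := hr Bp (by simp)
          simpa [Bp, U] using this
        have hmn : pev u h 1 (minpoly (ZMod p) (ω : F)) = 1 := by
          have := hr Bm (by simp)
          simp only [Bm, map_pev, U, H, FreeGroup.lift_apply_of, Matrix.cons_val_zero, Matrix.cons_val] at this
          exact this
        have hb : Function.Bijective (algebraMap (ZMod p) F) := (Fintype.bijective_iff_injective_and_card _).2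
          ⟨(algebraMap (ZMod p) F).injective, by rw [ZMod.card, hk, ← hk1, pow_one]⟩
        obtain ⟨v, hv⟩ := hb.2 (ω : F)
        obtain ⟨z, hz⟩ : ∃ z : ℤ, h * u * h⁻¹ = u ^ z := by
          have h1 := hmn
          rw [← hv, minpoly.eq_X_sub_C, pev, natDegree_X_sub_C] at h1
          haveI : Fact (1 < p) := ⟨hpp.one_lt⟩
          simp only [List.range_succ, List.range_zero, List.nil_append, List.singleton_append, List.map_cons,
            List.map_nil, List.prod_cons, List.prod_nil, coeff_sub, coeff_X_zero, coeff_C_zero, coeff_X_one,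
            coeff_C_succ, zero_sub, sub_zero, mul_zero, pow_zero, one_mul, inv_one, mul_one, pow_one, ZMod.val_one] at h1
          exact ⟨-((-v).val : ℤ), by rw [_root_.zpow_neg, zpow_natCast]; exact eq_inv_of_mul_eq_one_right h1⟩
        exact finish u h hu (commute_of_power z hz) hmn
    · have hq4 : 4 ≤ Fintype.card F := by
        rw [hk]
        calc 4 = 2 ^ 2 := rfl
          _ ≤ p ^ 2 := Nat.pow_le_pow_left hpp.two_le 2
          _ ≤ _ := Nat.pow_le_pow_right hpp.pos hk1
      obtain ⟨j, hj⟩ := hj hq4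
      refine ⟨{Bp, Bc, Bt j, Bm} ∪ fixedRels m l e ∪ ({0} : Finset ℕ).biUnion pairRels, ?_, ?_⟩
      · exact (hcardU _ _).trans (by
          have := Finset.card_le_four (a := Bp) (b := Bc) (c := Bt j) (d := Bm)
          simp
          omega)
      refine presents ω e hω m l hm hl he _ _ (hspan1 h4) ?_ ?_
      · intro r hr
        simp only [Finset.mem_insert, Finset.mem_singleton] at hr
        rcases hr with rfl | rfl | rfl | rfl
        exacts [okp, okc, okt j hj, okm]
      · intro G _ u t c h hr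
        have hu : u ^ p = 1 := by
          have := hr Bp (by simp)
          simpa [Bp, U] using this
        have hmn : pev u h 1 (minpoly (ZMod p) (ω : F)) = 1 := by
          have := hr Bm (by simp)
          simp only [Bm, map_pev, U, H, FreeGroup.lift_apply_of, Matrix.cons_val_zero, Matrix.cons_val] at this
          exact this
        have hc1 : Commute u (h ^ 1 * u * (h ^ 1)⁻¹) := by
          have := hr Bc (by simp)
          simp only [Bc, U, H, map_mul, map_inv, map_pow, FreeGroup.lift_apply_of, mul_inv_eq_one,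
            Matrix.cons_val_zero, Matrix.cons_val] at this
          exact this
        have hb : h ^ j * u * (h ^ j)⁻¹ = u * (h ^ 1 * u * (h ^ 1)⁻¹) := by
          have := hr (Bt j) (by simp)
          simp only [Bt, U, H, map_mul, map_inv, map_pow, FreeGroup.lift_apply_of, mul_inv_eq_one,
            Matrix.cons_val_zero, Matrix.cons_val] at this
          exact this
        exact finish u h hu (commute_of_triangle hc1 hb) hmn

end Cfsg.Agent.Lib.SLThreePres.Main
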