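import Cfsg.Agent.Lib.SLThreePres.Torus
import Cfsg.Agent.S2401

/-!
# The Steinberg relations of `SL₃` from two relations between root elements
-/

set_option autoImplicit false

namespace Cfsg.Agent.Lib.SLThreePres

universe u v

variable {F : Type u} [Field F] {G : Type v} [Group G]

/-- `x y x⁻¹ y⁻¹`. -/
def cmr (a b : G) : G := a * b * a⁻¹ * b⁻¹

theorem cmr_conj (g a b : G) : g * cmr a b * g⁻¹ = cmr (g * a * g⁻¹) (g * b * g⁻¹) := by
  simp only [cmr]; group

theorem commute_conj (g : G) {a b : G} (h : Commute a b) : Commute (g * a * g⁻¹) (g * b * g⁻¹) := by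
  have := h.map (MulAut.conj g).toMonoidHom
  simp only [MulEquiv.coe_toMonoidHom, MulAut.conj_apply] at this
  exact this

namespace Data

variable (D : Data F G)

theorem b2_zero : D.b2 0 = 1 := by
  have h := D.b2_add 0 0
  rw [add_zero] at h
  exact left_eq_mul.1 h

theorem b2_neg (a : F) : D.b2 (-a) = (D.b2 a)⁻¹ :=
  eq_inv_of_mul_eq_one_left (by rw [← D.b2_add, neg_add_cancel, D.b2_zero])

theorem a1_zero : D.a1 0 = 1 := by
  simp [a1, D.x_zero]

variable (E : Set F) (hspan : ∀ M : AddSubgroup F, E ⊆ M → (∀ a ∈ M, (D.ω : F) ^ 3 * a ∈ M) → M = ⊤)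
variable (hrow : ∀ a ∈ E, Commute (D.x 1) (D.b2 a))
variable (hcol : ∀ a ∈ E, cmr (D.x a) (D.a1 1) = D.b2 (-a))

include hspan hrow in
/-- `x₁₂` commutes with `x₁₃`. -/
theorem commute_x_b2 (a b : F) : Commute (D.x a) (D.b2 b) := by
  let M : AddSubgroup F :=
    { carrier := {b | Commute (D.x 1) (D.b2 b)}
      add_mem' := fun {b b'} h h' => by
        show Commute (D.x 1) (D.b2 (b + b'))
        rw [D.b2_add]; exact h.mul_right h'
      zero_mem' := by show Commute _ _; rw [D.b2_zero]; exact Commute.one_right _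
      neg_mem' := fun {b} h => by show Commute _ _; rw [D.b2_neg]; exact h.inv_right }
  have hM : M = ⊤ := hspan M hrow fun b hb => by
    show Commute (D.x 1) (D.b2 ((D.ω : F) ^ 3 * b))
    have h1 := (D.s_h.mul D.s_h2.inv) 1
    have h2 := (D.sb2_h.mul D.sb2_h2.inv) b
    rw [mul_inv_cancel, Units.val_one, one_mul] at h1
    rw [inv_inv, ← pow_succ, Units.val_pow_eq_pow_val] at h2
    rw [← h1, ← h2]
    exact commute_conj _ hb
  rcases eq_or_ne a 0 with rfl | ha
  · rw [D.x_zero]; exact Commute.one_left _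
  obtain ⟨n, hn⟩ := D.hω (Units.mk0 a ha)
  have hb : (((D.ω ^ 2) ^ n)⁻¹ : Fˣ) * b ∈ M := hM ▸ AddSubgroup.mem_top _
  have h1 := (D.s_h.pow n) 1
  have h2 := (D.sb2_h.pow n) (((((D.ω ^ 2) ^ n)⁻¹ : Fˣ) : F) * b)
  rw [mul_one, hn, Units.val_mk0] at h1
  rw [← mul_assoc, ← Units.val_mul, mul_inv_cancel, Units.val_one, one_mul] at h2
  rw [← h1, ← h2]
  exact commute_conj _ hb

include hspan hrow hcol in
/-- `[x₁₂, x₂₃] = x₁₃`. -/
theorem cmr_x_a1 (a b : F) : cmr (D.x a) (D.a1 b) = D.b2 (-(a * b)) := by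
  have hc := commute_x_b2 D E hspan hrow
  let M : AddSubgroup F :=
    { carrier := {a | cmr (D.x a) (D.a1 1) = D.b2 (-a)}
      add_mem' := fun {a a'} h h' => by
        show cmr (D.x (a + a')) (D.a1 1) = D.b2 (-(a + a'))
        rw [D.add, show cmr (D.x a * D.x a') (D.a1 1) = D.x a * cmr (D.x a') (D.a1 1) * (D.x a)⁻¹ * cmr (D.x a) (D.a1 1) by
          simp only [cmr]; group, h, h', (hc a _).eq, mul_inv_cancel_right, ← D.b2_add, neg_add, add_comm]
      zero_mem' := by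
        show cmr (D.x 0) (D.a1 1) = D.b2 (-0)
        rw [neg_zero, D.b2_zero, D.x_zero]; simp [cmr]
      neg_mem' := fun {a} h => by
        show cmr (D.x (-a)) (D.a1 1) = D.b2 (- -a)
        rw [D.x_neg, show cmr (D.x a)⁻¹ (D.a1 1) = (D.x a)⁻¹ * (cmr (D.x a) (D.a1 1))⁻¹ * D.x a by
          simp only [cmr]; group, h, ← D.b2_neg, mul_assoc, ← (hc a _).eq, inv_mul_cancel_left] }
  have hM : M = ⊤ := hspan M hcol fun a ha => by
    show cmr (D.x ((D.ω : F) ^ 3 * a)) (D.a1 1) = D.b2 (-((D.ω : F) ^ 3 * a))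
    have h1 := ((D.s_h.pow 2).mul D.s_h2) a
    have h2 := ((D.sa1_h.pow 2).mul D.sa1_h2) 1
    have h3 := ((D.sb2_h.pow 2).mul D.sb2_h2) (-a)
    rw [← pow_succ, Units.val_pow_eq_pow_val] at h1
    rw [inv_pow, mul_inv_cancel, Units.val_one, one_mul] at h2
    rw [show (D.ω ^ 2) ^ 2 * D.ω⁻¹ = D.ω ^ 3 by rw [← pow_mul, pow_succ D.ω 3, mul_inv_cancel_right],
      Units.val_pow_eq_pow_val, mul_neg] at h3
    rw [← h1, ← h2, ← h3, ← cmr_conj, show cmr (D.x a) (D.a1 1) = D.b2 (-a) from ha]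
  rcases eq_or_ne b 0 with rfl | hb
  · rw [mul_zero, neg_zero, D.b2_zero, D.a1_zero]; simp [cmr]
  obtain ⟨n, hn⟩ := D.hω (Units.mk0 b hb)
  have ha : ((D.ω ^ n)⁻¹ : Fˣ) * a ∈ M := hM ▸ AddSubgroup.mem_top _
  have h1 := (D.s_h.pow n) ((((D.ω ^ n)⁻¹ : Fˣ) : F) * a)
  have h2 := (D.sa1_h.pow n) 1
  have h3 := (D.sb2_h.pow n) (-((((D.ω ^ n)⁻¹ : Fˣ) : F) * a))
  rw [← mul_assoc, ← Units.val_mul, mul_inv_cancel, Units.val_one, one_mul] at h1
  rw [mul_one, hn, Units.val_mk0] at h2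
  rw [show (D.ω ^ 2) ^ n = D.ω ^ n * D.ω ^ n by rw [← pow_add, ← pow_mul, two_mul], mul_neg, Units.val_mul, mul_assoc ((D.ω ^ n : Fˣ) : F),
    ← mul_assoc ((D.ω ^ n : Fˣ) : F) (((D.ω ^ n)⁻¹ : Fˣ) : F), ← Units.val_mul, mul_inv_cancel, Units.val_one, one_mul,
    show ((D.ω ^ n : Fˣ) : F) * a = a * b by rw [hn, Units.val_mk0, mul_comm]] at h3
  rw [← h1, ← h2, ← h3, ← cmr_conj, show cmr (D.x ((((D.ω ^ n)⁻¹ : Fˣ) : F) * a)) (D.a1 1) = _ from ha]

include hspan hrow hcol in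
/-- `x₂₃` commutes with `x₁₃`. -/
theorem commute_a1_b2 (a b : F) : Commute (D.a1 a) (D.b2 b) := by
  have h := cmr_x_a1 D E hspan hrow hcol
  have key := h 1 (a + -b)
  rw [D.a1_add, show cmr (D.x 1) (D.a1 a * D.a1 (-b)) = cmr (D.x 1) (D.a1 a) * (D.a1 a * cmr (D.x 1) (D.a1 (-b)) * (D.a1 a)⁻¹) by
    simp only [cmr]; group, h, h, one_mul, one_mul, one_mul, neg_neg, neg_add, neg_neg, D.b2_add] at key
  exact mul_inv_eq_iff_eq_mul.1 (mul_left_cancel key)

/-- The root element `x_ij`. -/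
def root (D : Data F G) (i j : Fin 3) (a : F) : G :=
  if i = 0 ∧ j = 1 then D.x a else if i = 1 ∧ j = 2 then D.a1 a else if i = 2 ∧ j = 0 then D.a2 (-a)
  else if i = 1 ∧ j = 0 then D.y a else if i = 2 ∧ j = 1 then D.b1 a else D.b2 (-a)

include hspan hrow hcol in
/-- The map from the Steinberg presentation. -/
theorem exists_steinberg :
    ∃ ψ : PresentedGroup
        ({g : FreeGroup ({ij : Fin 3 × Fin 3 // ij.1 ≠ ij.2} × F) | ∃ (a : {ij : Fin 3 × Fin 3 // ij.1 ≠ ij.2}) (t u : F),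
            g = FreeGroup.of (a, t) * FreeGroup.of (a, u) * (FreeGroup.of (a, t + u))⁻¹} ∪
          {g | ∃ (a b : {ij : Fin 3 × Fin 3 // ij.1 ≠ ij.2}) (t u : F), a.1.1 ≠ b.1.2 ∧ a.1.2 ≠ b.1.1 ∧
            g = FreeGroup.of (a, t) * FreeGroup.of (b, u) * (FreeGroup.of (a, t))⁻¹ * (FreeGroup.of (b, u))⁻¹} ∪
          {g | ∃ (a b : {ij : Fin 3 × Fin 3 // ij.1 ≠ ij.2}) (h : a.1.1 ≠ b.1.2) (t u : F), a.1.2 = b.1.1 ∧
            g = FreeGroup.of (a, t) * FreeGroup.of (b, u) * (FreeGroup.of (a, t))⁻¹ * (FreeGroup.of (b, u))⁻¹ *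
              (FreeGroup.of (⟨(a.1.1, b.1.2), h⟩, t * u))⁻¹}) →* G,
      ∀ (a : {ij : Fin 3 × Fin 3 // ij.1 ≠ ij.2}) (t : F), ψ (PresentedGroup.of (a, t)) = D.root a.1.1 a.1.2 t := by
  have hab := commute_x_b2 D E hspan hrow
  have hcb := commute_a1_b2 D E hspan hrow hcol
  have h3 := cmr_x_a1 D E hspan hrow hcol
  have row1 : ∀ a b, Commute (D.a1 a) (D.y b) := fun a b => by
    have := commute_conj D.c (hab a b)
    rw [D.c_b2] at this
    exact this
  have row2 : ∀ a b, Commute (D.a2 a) (D.b1 b) := fun a b => commute_conj D.c (row1 a b)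
  have col1 : ∀ a b, Commute (D.a2 a) (D.y b) := fun a b => by
    have := commute_conj D.c (hcb a b)
    rw [D.c_b2] at this
    exact this
  have col2 : ∀ a b, Commute (D.x a) (D.b1 b) := fun a b => by
    have := commute_conj D.c (col1 a b)
    rw [D.c_a2] at this
    exact this
  have m1 : ∀ a b, cmr (D.a1 a) (D.a2 b) = D.y (-(a * b)) := fun a b => by
    have := congrArg (fun g => D.c * g * D.c⁻¹) (h3 a b)
    rw [cmr_conj, D.c_b2] at this
    exact this
  have m2 : ∀ a b, cmr (D.a2 a) (D.x b) = D.b1 (-(a * b)) := fun a b => by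
    have := congrArg (fun g => D.c * g * D.c⁻¹) (m1 a b)
    rw [cmr_conj, D.c_a2] at this
    exact this
  have n1 : ∀ a b, cmr (D.y a) (D.b2 b) = D.a1 (-(a * b)) := fun a b => by
    have := congrArg (fun g => D.t * g * D.t⁻¹) (h3 (-a) (-b))
    rw [cmr_conj, D.t_x, D.t_a1, D.t_b2, neg_neg, neg_neg, neg_mul_neg] at this
    exact this
  have n2 : ∀ a b, cmr (D.b1 a) (D.y b) = D.a2 (-(a * b)) := fun a b => by
    have := congrArg (fun g => D.c * g * D.c⁻¹) (n1 a b)
    rw [cmr_conj, D.c_b2] at this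
    exact this
  have n3 : ∀ a b, cmr (D.b2 a) (D.b1 b) = D.x (-(a * b)) := fun a b => by
    have := congrArg (fun g => D.c * g * D.c⁻¹) (n2 a b)
    rw [cmr_conj, D.c_a2] at this
    exact this
  refine ⟨PresentedGroup.toGroup (f := fun at' => D.root at'.1.1.1 at'.1.1.2 at'.2) ?_,
    fun a t => PresentedGroup.toGroup.of _⟩
  rintro g ((⟨a, t, u, rfl⟩ | ⟨a, b, t, u, hab1, hab2, rfl⟩) | ⟨a, b, hne, t, u, hjk, rfl⟩)
  · obtain ⟨⟨i, j⟩, hij⟩ := a
    simp only [map_mul, map_inv, FreeGroup.lift_apply_of]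
    rw [mul_inv_eq_one]
    fin_cases i <;> fin_cases j <;>
      first
      | exact absurd rfl hij
      | (simp [root, neg_add, -neg_add_rev, D.add, D.a1_add, D.a2_add, D.y_add, D.b1_add, D.b2_add]; done)
  · obtain ⟨⟨i, j⟩, hij⟩ := a
    obtain ⟨⟨k, l⟩, hkl⟩ := b
    simp only [map_mul, map_inv, FreeGroup.lift_apply_of]
    rw [mul_inv_eq_one, mul_inv_eq_iff_eq_mul]
    fin_cases i <;> fin_cases j <;> fin_cases k <;> fin_cases l <;>
      first
      | exact absurd rfl hij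
      | exact absurd rfl hkl
      | exact absurd rfl hab1
      | exact absurd rfl hab2
      | (simp [root]; done)
      | (simp only [root]
         simp only [Fin.isValue, Fin.zero_eta, Fin.mk_one, Fin.reduceFinMk, Fin.reduceEq, and_self, and_true, and_false,
           ↓reduceIte]
         first
         | exact (hab _ _).eq
         | exact (hab _ _).symm.eq
         | exact (hcb _ _).eq
         | exact (hcb _ _).symm.eq
         | exact (row1 _ _).eq
         | exact (row1 _ _).symm.eq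
         | exact (row2 _ _).eq
         | exact (row2 _ _).symm.eq
         | exact (col1 _ _).eq
         | exact (col1 _ _).symm.eq
         | exact (col2 _ _).eq
         | exact (col2 _ _).symm.eq
         | (rw [← D.add, ← D.add, add_comm])
         | (rw [← D.a1_add, ← D.a1_add, add_comm])
         | (rw [← D.a2_add, ← D.a2_add, add_comm])
         | (rw [← D.y_add, ← D.y_add, add_comm])
         | (rw [← D.b1_add, ← D.b1_add, add_comm])
         | (rw [← D.b2_add, ← D.b2_add, add_comm]))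
  · obtain ⟨⟨i, j⟩, hij⟩ := a
    obtain ⟨⟨k, l⟩, hkl⟩ := b
    simp only [map_mul, map_inv, FreeGroup.lift_apply_of]
    rw [mul_inv_eq_one]
    change cmr (D.root i j t) (D.root k l u) = D.root i l (t * u)
    fin_cases i <;> fin_cases j <;> fin_cases k <;> fin_cases l <;>
      first
      | exact absurd rfl hij
      | exact absurd rfl hkl
      | exact absurd rfl hne
      | (simp at hjk; done)
      | (simp [root, h3, m1, m2, n1, n2, n3]; done)

end Data

end Cfsg.Agent.Lib.SLThreePres
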