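import Mathlib

/-!
# Root groups and the torus for short presentations of `SL₃`

An abstract group with elements `t`, `c`, `h` and a root group `x` satisfying the relations of the
monomial subgroup of `SL₃` and two torus actions has all torus actions on the six root families.
-/

set_option autoImplicit false

namespace Cfsg.Agent.Lib.SLThreePres

universe u v

variable {F : Type u} [Field F] {G : Type v} [Group G]

/-- The basic data: a root group `x`, the Weyl elements `t`, `c` and a torus element `h`. -/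
structure Data (F : Type u) [Field F] (G : Type v) [Group G] where
  x : F → G
  t : G
  c : G
  h : G
  ω : Fˣ
  e : ℕ
  hω : ∀ s : Fˣ, ∃ n : ℕ, ω ^ n = s
  he : ω ^ e = -1
  add : ∀ a b, x (a + b) = x a * x b
  act : ∀ a, h * x a * h⁻¹ = x ((ω : F) * a)
  act' : ∀ a, c * h * c⁻¹ * x a * (c * h * c⁻¹)⁻¹ = x (((ω⁻¹ : Fˣ) : F) ^ 2 * a)
  cube : c ^ 3 = 1
  braid : c = t * c * t * c⁻¹
  tor : Commute h (c * h * c⁻¹)
  weyl : t * h * t⁻¹ = h * (c * h * c⁻¹)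
  sq : t ^ 2 = (c * h * c⁻¹) ^ e

namespace Data

variable (D : Data F G)

/-- The second torus element. -/
def h1 : G := D.c * D.h * D.c⁻¹

/-- The third torus element. -/
def h2 : G := D.c * D.h1 * D.c⁻¹

theorem x_zero : D.x 0 = 1 := by
  have h := D.add 0 0
  rw [add_zero] at h
  exact left_eq_mul.1 h

theorem x_neg (a : F) : D.x (-a) = (D.x a)⁻¹ :=
  eq_inv_of_mul_eq_one_left (by rw [← D.add, neg_add_cancel, D.x_zero])

theorem c_h2 : D.c * D.h2 * D.c⁻¹ = D.h := by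
  have : D.c * D.h2 * D.c⁻¹ = D.c ^ 3 * D.h * (D.c ^ 3)⁻¹ := by
    simp only [h2, h1, pow_succ, pow_zero, one_mul]
    group
  rw [this, D.cube, one_mul, inv_one, mul_one]

theorem comm01 : Commute D.h D.h1 := D.tor

theorem comm12 : Commute D.h1 D.h2 := by
  have := D.tor.map (MulAut.conj D.c).toMonoidHom
  simp only [MulEquiv.coe_toMonoidHom, MulAut.conj_apply] at this
  exact this

theorem comm20 : Commute D.h2 D.h := by
  have := D.comm12.map (MulAut.conj D.c).toMonoidHom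
  simp only [MulEquiv.coe_toMonoidHom, MulAut.conj_apply] at this
  rw [D.c_h2] at this
  exact this

theorem sq_comm : Commute (D.t ^ 2) D.h := by rw [D.sq]; exact (D.comm01.pow_right D.e).symm

theorem sq_comm1 : Commute (D.t ^ 2) D.h1 := by rw [D.sq]; exact (Commute.refl D.h1).pow_left D.e

theorem sq_comm2 : Commute (D.t ^ 2) D.h2 := by rw [D.sq]; exact D.comm12.pow_left D.e

theorem t_inv_h : D.t⁻¹ * D.h * D.t = D.h * D.h1 := by
  calc D.t⁻¹ * D.h * D.t = (D.t ^ 2)⁻¹ * (D.t * D.h * D.t⁻¹) * D.t ^ 2 := by rw [pow_two]; group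
    _ = (D.t ^ 2)⁻¹ * (D.h * D.h1) * D.t ^ 2 := by rw [D.weyl]; rfl
    _ = _ := by rw [mul_assoc, ← (D.sq_comm.mul_right D.sq_comm1).eq, inv_mul_cancel_left]

theorem tc_inv : D.t * D.c = D.c⁻¹ * D.t⁻¹ := by
  have h1 : D.t * D.c * D.t = D.c * D.c := by
    conv_rhs => arg 1; rw [D.braid]
    group
  have h2 : (D.t * D.c) * (D.t * D.c) = 1 := by
    calc (D.t * D.c) * (D.t * D.c) = (D.t * D.c * D.t) * D.c := by group
      _ = D.c ^ 3 := by rw [h1, pow_succ, pow_two]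
      _ = 1 := D.cube
  rw [← _root_.mul_inv_rev]
  exact eq_inv_of_mul_eq_one_left h2

theorem t_h1 : D.t * D.h1 * D.t⁻¹ = D.h2 * D.h := by
  calc D.t * D.h1 * D.t⁻¹ = (D.t * D.c) * D.h * (D.t * D.c)⁻¹ := by rw [h1]; group
    _ = D.c⁻¹ * (D.t⁻¹ * D.h * D.t) * D.c := by rw [D.tc_inv]; group
    _ = (D.c⁻¹ * D.h * D.c) * (D.c⁻¹ * D.h1 * D.c) := by rw [D.t_inv_h]; group
    _ = D.h2 * D.h := by
      have e : D.c⁻¹ * D.h * D.c = D.h2 := by
        conv_lhs => rw [← D.c_h2]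
        group
      rw [e, h1]; group

theorem torus_prod : D.h * D.h1 * D.h2 = 1 := by
  have h2 : D.t * (D.h * D.h1) * D.t⁻¹ = D.h := by
    calc D.t * (D.h * D.h1) * D.t⁻¹ = D.t * (D.t * D.h * D.t⁻¹) * D.t⁻¹ := by rw [D.weyl]; rfl
      _ = D.t ^ 2 * D.h * (D.t ^ 2)⁻¹ := by rw [pow_two]; group
      _ = D.h := by rw [D.sq_comm.eq, mul_inv_cancel_right]
  have h3 : D.h * D.h1 * (D.h2 * D.h) = D.h := by
    rw [show D.t * (D.h * D.h1) * D.t⁻¹ = (D.t * D.h * D.t⁻¹) * (D.t * D.h1 * D.t⁻¹) by group, D.t_h1,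
      show D.t * D.h * D.t⁻¹ = D.h * D.h1 from D.weyl] at h2
    exact h2
  rw [← mul_assoc] at h3
  exact mul_eq_right.1 h3

theorem h2_eq : D.h2 = (D.h * D.h1)⁻¹ := eq_inv_of_mul_eq_one_right D.torus_prod

theorem t_h : D.t * D.h * D.t⁻¹ = D.h2⁻¹ := by rw [D.h2_eq, inv_inv]; exact D.weyl

theorem t_h1' : D.t * D.h1 * D.t⁻¹ = D.h1⁻¹ := by
  rw [D.t_h1, D.h2_eq, _root_.mul_inv_rev, mul_assoc, inv_mul_cancel, mul_one]

theorem t_h2 : D.t * D.h2 * D.t⁻¹ = D.h⁻¹ := by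
  rw [D.h2_eq, show D.t * (D.h * D.h1)⁻¹ * D.t⁻¹ = ((D.t * D.h * D.t⁻¹) * (D.t * D.h1 * D.t⁻¹))⁻¹ by group,
    D.t_h1', show D.t * D.h * D.t⁻¹ = D.h * D.h1 from D.weyl, mul_inv_cancel_right]

/-- `g` multiplies the family `y` by `ν`. -/
def Scales (g : G) (y : F → G) (ν : Fˣ) : Prop := ∀ a, g * y a * g⁻¹ = y ((ν : F) * a)

theorem Scales.inv {g : G} {y : F → G} {ν : Fˣ} (hg : Scales g y ν) : Scales g⁻¹ y ν⁻¹ := fun a => by
  have := hg (((ν⁻¹ : Fˣ) : F) * a)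
  rw [← mul_assoc, ← Units.val_mul, mul_inv_cancel, Units.val_one, one_mul] at this
  conv_lhs => rw [← this]
  group

theorem Scales.mul {g g' : G} {y : F → G} {ν ν' : Fˣ} (hg : Scales g y ν) (hg' : Scales g' y ν') :
    Scales (g * g') y (ν * ν') := fun a => by
  rw [show g * g' * y a * (g * g')⁻¹ = g * (g' * y a * g'⁻¹) * g⁻¹ by group, hg', hg, Units.val_mul, mul_assoc]

theorem Scales.pow {g : G} {y : F → G} {ν : Fˣ} (hg : Scales g y ν) (n : ℕ) : Scales (g ^ n) y (ν ^ n) := by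
  induction n with
  | zero => intro a; simp
  | succ n ih => rw [pow_succ, pow_succ]; exact ih.mul hg

theorem s_h : Scales D.h D.x D.ω := D.act

theorem s_h1 : Scales D.h1 D.x (D.ω⁻¹ ^ 2) := fun a => by
  rw [Units.val_pow_eq_pow_val]
  exact D.act' a

theorem s_h2 : Scales D.h2 D.x D.ω := by
  have := (D.s_h.mul D.s_h1).inv
  rw [← D.h2_eq] at this
  convert this using 1
  rw [pow_two, ← mul_assoc, mul_inv_cancel, one_mul, inv_inv]

theorem omega_e_sq : (D.ω⁻¹ ^ 2) ^ D.e = 1 := by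
  rw [← pow_mul, mul_comm, pow_mul, inv_pow, D.he, inv_neg, inv_one, neg_one_sq]

theorem s_sq (a : F) : D.t ^ 2 * D.x a * (D.t ^ 2)⁻¹ = D.x a := by
  rw [D.sq]
  have h := (D.s_h1.pow D.e) a
  rwa [D.omega_e_sq, Units.val_one, one_mul] at h

theorem inv_t_conj {g g' : G} (hg : D.t * g * D.t⁻¹ = g') : D.t⁻¹ * g' * D.t = g := by rw [← hg]; group

/-- The opposite root family. -/
def y (a : F) : G := D.t * D.x (-a) * D.t⁻¹

theorem scales_y {g g' : G} {ν : Fˣ} (hg : D.t⁻¹ * g * D.t = g') (hs : Scales g' D.x ν) : Scales g D.y ν := fun a => by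
  rw [y, show g * (D.t * D.x (-a) * D.t⁻¹) * g⁻¹ = D.t * ((D.t⁻¹ * g * D.t) * D.x (-a) * (D.t⁻¹ * g * D.t)⁻¹) * D.t⁻¹ by group,
    hg, hs, y, mul_neg]

theorem sy_h : Scales D.h D.y D.ω⁻¹ := by
  have := D.scales_y (D.inv_t_conj (show D.t * D.h2⁻¹ * D.t⁻¹ = D.h by
    rw [show D.t * D.h2⁻¹ * D.t⁻¹ = (D.t * D.h2 * D.t⁻¹)⁻¹ by group, D.t_h2, inv_inv])) D.s_h2.inv
  exact this

theorem sy_h1 : Scales D.h1 D.y (D.ω ^ 2) := by
  have := D.scales_y (D.inv_t_conj (show D.t * D.h1⁻¹ * D.t⁻¹ = D.h1 by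
    rw [show D.t * D.h1⁻¹ * D.t⁻¹ = (D.t * D.h1 * D.t⁻¹)⁻¹ by group, D.t_h1', inv_inv])) D.s_h1.inv
  rwa [inv_pow, inv_inv] at this

theorem sy_h2 : Scales D.h2 D.y D.ω⁻¹ := by
  have := D.scales_y (D.inv_t_conj (show D.t * D.h⁻¹ * D.t⁻¹ = D.h2 by
    rw [show D.t * D.h⁻¹ * D.t⁻¹ = (D.t * D.h * D.t⁻¹)⁻¹ by group, D.t_h, inv_inv])) D.s_h.inv
  exact this

/-- `x₂₃`. -/
def a1 (a : F) : G := D.c * D.x a * D.c⁻¹

/-- `x₃₁`, up to sign. -/
def a2 (a : F) : G := D.c * D.a1 a * D.c⁻¹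

/-- `x₃₂`. -/
def b1 (a : F) : G := D.c * D.y a * D.c⁻¹

/-- `x₁₃`, up to sign. -/
def b2 (a : F) : G := D.c * D.b1 a * D.c⁻¹

theorem scales_shift {g : G} {z : F → G} {ν : Fˣ} (hs : Scales g z ν) :
    Scales (D.c * g * D.c⁻¹) (fun a => D.c * z a * D.c⁻¹) ν := fun a => by
  show D.c * g * D.c⁻¹ * (D.c * z a * D.c⁻¹) * (D.c * g * D.c⁻¹)⁻¹ = D.c * z ((ν : F) * a) * D.c⁻¹
  rw [← hs a]
  group

theorem c_a2 (a : F) : D.c * D.a2 a * D.c⁻¹ = D.x a := by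
  have : D.c * D.a2 a * D.c⁻¹ = D.c ^ 3 * D.x a * (D.c ^ 3)⁻¹ := by
    simp only [a2, a1, pow_succ, pow_zero, one_mul]
    group
  rw [this, D.cube, one_mul, inv_one, mul_one]

theorem c_b2 (a : F) : D.c * D.b2 a * D.c⁻¹ = D.y a := by
  have : D.c * D.b2 a * D.c⁻¹ = D.c ^ 3 * D.y a * (D.c ^ 3)⁻¹ := by
    simp only [b2, b1, pow_succ, pow_zero, one_mul]
    group
  rw [this, D.cube, one_mul, inv_one, mul_one]

theorem sa1_h : Scales D.h D.a1 D.ω := by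
  have := D.scales_shift D.s_h2
  rw [D.c_h2] at this
  exact this

theorem sa1_h1 : Scales D.h1 D.a1 D.ω := D.scales_shift D.s_h

theorem sa1_h2 : Scales D.h2 D.a1 (D.ω⁻¹ ^ 2) := D.scales_shift D.s_h1

theorem sb2_h : Scales D.h D.b2 (D.ω ^ 2) := by
  have := D.scales_shift (D.scales_shift D.sy_h1)
  rw [show D.c * (D.c * D.h1 * D.c⁻¹) * D.c⁻¹ = D.h from D.c_h2] at this
  exact this

theorem sb2_h2 : Scales D.h2 D.b2 D.ω⁻¹ := D.scales_shift (D.scales_shift D.sy_h)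

theorem y_add (a b : F) : D.y (a + b) = D.y a * D.y b := by
  simp only [y]; rw [neg_add, D.add]; group

theorem a1_add (a b : F) : D.a1 (a + b) = D.a1 a * D.a1 b := by
  simp only [a1]; rw [D.add]; group

theorem a2_add (a b : F) : D.a2 (a + b) = D.a2 a * D.a2 b := by
  simp only [a2]; rw [D.a1_add]; group

theorem b1_add (a b : F) : D.b1 (a + b) = D.b1 a * D.b1 b := by
  simp only [b1]; rw [D.y_add]; group

theorem b2_add (a b : F) : D.b2 (a + b) = D.b2 a * D.b2 b := by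
  simp only [b2]; rw [D.b1_add]; group

theorem t_x (a : F) : D.t * D.x a * D.t⁻¹ = D.y (-a) := by rw [y, neg_neg]

theorem t_a1 (a : F) : D.t * D.a1 a * D.t⁻¹ = D.b2 (-a) := by
  have h1 : D.t⁻¹ * D.x a * D.t = D.t * D.x a * D.t⁻¹ := by
    conv_lhs => rw [← D.s_sq a, pow_two]
    group
  have hc : D.c⁻¹ = D.c * D.c := inv_eq_of_mul_eq_one_left (by rw [← D.cube, pow_succ, pow_two])
  calc D.t * D.a1 a * D.t⁻¹ = (D.t * D.c) * D.x a * (D.t * D.c)⁻¹ := by rw [a1]; group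
    _ = D.c⁻¹ * (D.t⁻¹ * D.x a * D.t) * D.c := by rw [D.tc_inv]; group
    _ = D.c⁻¹ * D.y (-a) * D.c⁻¹⁻¹ := by rw [h1, D.t_x, inv_inv]
    _ = _ := by rw [hc, b2, b1]; group

theorem t_b2 (a : F) : D.t * D.b2 a * D.t⁻¹ = D.a1 a := by
  have h1 := D.t_a1 (-a)
  rw [neg_neg] at h1
  have hs : Scales (D.t ^ 2) D.a1 (-1) := by
    rw [D.sq, ← D.he]
    exact D.sa1_h1.pow D.e
  have h2 := hs (-a)
  rw [Units.val_neg, Units.val_one, neg_one_mul, neg_neg] at h2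
  rw [← h1, ← h2, pow_two]
  group

end Data

end Cfsg.Agent.Lib.SLThreePres
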